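import Mathlib
import Cfsg.Prelude.Def_Local
import Cfsg.Agent.OddOrderLocal.PLengthOne
import Cfsg.Agent.OddOrderLocal.PLengthSub
import Cfsg.Agent.Lib.Cores
set_option linter.all false

/-!
# `p`-length: basic facts for all `k`

`Cfsg.PLengthLE p k G` (the upper `p`-series reaches `G` at position `2k+1`) is characterized by
normal series whose factors are alternately `p'`-groups and `p`-groups; it passes to subgroups and
quotients, is monotone in `k` and subadditive on extensions.
-/

set_option autoImplicit false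

namespace Cfsg.Agent.H451.PLength

open Cfsg Subgroup Cfsg.Agent.OddOrderLocal

variable {G : Type*} [Group G]

/-- a chain of normal subgroups starting at `⊥` whose factors are alternately of order prime to `p`
and a power of `p` -/
structure IsSeries (p : ℕ) (H : ℕ → Subgroup G) : Prop where
  zero : H 0 = ⊥
  mono : Monotone H
  normal : ∀ n, (H n).Normal
  even : ∀ n, Even n → ((H n).relIndex (H (n + 1))).Coprime p
  odd : ∀ n, ¬ Even n → ∃ m, (H n).relIndex (H (n + 1)) = p ^ m

theorem relIndex_comap_mk' (N : Subgroup G) [N.Normal] (K : Subgroup (G ⧸ N)) :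
    N.relIndex (K.comap (QuotientGroup.mk' N)) = Nat.card K := by
  rw [← PLengthSub.card_map_mk', Subgroup.map_comap_eq_self_of_surjective
    (QuotientGroup.mk'_surjective N)]

theorem upperPSeries_le_succ (p n : ℕ) :
    (upperPSeries p G n).1 ≤ (upperPSeries p G (n + 1)).1 := by
  by_cases hn : Even n
  · rw [PLengthOne.upperPSeries_succ_even p hn]
    intro x hx
    rw [Subgroup.mem_comap]
    have : QuotientGroup.mk' (upperPSeries p G n).1 x = 1 := (QuotientGroup.eq_one_iff x).2 hx
    rw [this]; exact one_mem _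
  · rw [PLengthOne.upperPSeries_succ_odd p hn]
    intro x hx
    rw [Subgroup.mem_comap]
    have : QuotientGroup.mk' (upperPSeries p G n).1 x = 1 := (QuotientGroup.eq_one_iff x).2 hx
    rw [this]; exact one_mem _

theorem upperPSeries_mono (p : ℕ) : Monotone (fun n => (upperPSeries p G n).1) :=
  monotone_nat_of_le_succ (upperPSeries_le_succ p)

theorem isSeries_upperPSeries [Finite G] {p : ℕ} [Fact p.Prime] :
    IsSeries p (fun n => (upperPSeries p G n).1) where
  zero := rfl
  mono := upperPSeries_mono p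
  normal := fun n => (upperPSeries p G n).2
  even := by
    intro n hn
    show ((upperPSeries p G n).1.relIndex (upperPSeries p G (n + 1)).1).Coprime p
    rw [PLengthOne.upperPSeries_succ_even p hn, relIndex_comap_mk']
    exact PLengthOne.card_pPrimeCore_coprime p
  odd := by
    intro n hn
    show ∃ m, (upperPSeries p G n).1.relIndex (upperPSeries p G (n + 1)).1 = p ^ m
    rw [PLengthOne.upperPSeries_succ_odd p hn, relIndex_comap_mk']
    exact IsPGroup.iff_card.mp (PLengthOne.isPGroup_pCore p)

/-- every series is termwise below the upper `p`-series -/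
theorem IsSeries.le_upper [Finite G] {p : ℕ} [Fact p.Prime] {H : ℕ → Subgroup G}
    (h : IsSeries p H) (n : ℕ) : H n ≤ (upperPSeries p G n).1 := by
  induction n with
  | zero => rw [h.zero]; exact bot_le
  | succ n ih =>
    have h3 : (upperPSeries p G n).1.relIndex (H (n + 1)) ∣ (H n).relIndex (H (n + 1)) :=
      Subgroup.relIndex_dvd_of_le_left _ ih
    by_cases hn : Even n
    · rw [PLengthOne.upperPSeries_succ_even p hn, ← Subgroup.map_le_iff_le_comap]
      apply PLengthOne.le_pPrimeCore
      · exact Subgroup.Normal.map (h.normal _) _ (QuotientGroup.mk'_surjective _)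
      · rw [PLengthSub.card_map_mk']
        exact Nat.Coprime.coprime_dvd_left h3 (h.even n hn)
    · rw [PLengthOne.upperPSeries_succ_odd p hn, ← Subgroup.map_le_iff_le_comap]
      apply PLengthOne.le_pCore
      · exact Subgroup.Normal.map (h.normal _) _ (QuotientGroup.mk'_surjective _)
      · rw [IsPGroup.iff_card, PLengthSub.card_map_mk']
        obtain ⟨m, hm⟩ := h.odd n hn
        rw [hm] at h3
        obtain ⟨m', -, hm'⟩ := (Nat.dvd_prime_pow Fact.out).mp h3
        exact ⟨m', hm'⟩

/-- `G` has `p`-length at most `k` iff some series reaches `G` at position `2k+1` -/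
theorem pLengthLE_iff [Finite G] {p : ℕ} [Fact p.Prime] {k : ℕ} :
    PLengthLE p k G ↔ ∃ H : ℕ → Subgroup G, IsSeries p H ∧ H (2 * k + 1) = ⊤ := by
  constructor
  · intro h
    exact ⟨_, isSeries_upperPSeries, h⟩
  · rintro ⟨H, hH, h⟩
    show (upperPSeries p G (2 * k + 1)).1 = ⊤
    rw [eq_top_iff, ← h]
    exact hH.le_upper _

/-- transport of a series along an injective homomorphism -/
theorem IsSeries.comap {H' : Type*} [Group H'] {p : ℕ} [Fact p.Prime]
    {H : ℕ → Subgroup G} (h : IsSeries p H) (f : H' →* G) (hf : Function.Injective f) :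
    IsSeries p (fun n => (H n).comap f) := by
  have hrel : ∀ (K L : Subgroup G), (K.comap f).relIndex (L.comap f) = K.relIndex (L ⊓ f.range) := by
    intro K L
    rw [Subgroup.relIndex_comap, Subgroup.map_comap_eq, inf_comm]
  have hdvd : ∀ n, ((H n).comap f).relIndex ((H (n + 1)).comap f) ∣ (H n).relIndex (H (n + 1)) := by
    intro n
    have := h.normal n
    rw [hrel]
    exact PLengthSub.relIndex_dvd_of_normal _ inf_le_left
  refine ⟨?_, ?_, ?_, ?_, ?_⟩
  · show (H 0).comap f = ⊥
    rw [h.zero]
    exact (MonoidHom.ker_eq_bot_iff f).mpr hf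
  · intro a b hab
    exact Subgroup.comap_mono (h.mono hab)
  · intro n
    have := h.normal n
    show ((H n).comap f).Normal
    infer_instance
  · intro n hn
    exact Nat.Coprime.coprime_dvd_left (hdvd n) (h.even n hn)
  · intro n hn
    obtain ⟨m, hm⟩ := h.odd n hn
    have h1 := hdvd n
    rw [hm] at h1
    obtain ⟨m', -, hm'⟩ := (Nat.dvd_prime_pow Fact.out).mp h1
    exact ⟨m', hm'⟩

theorem relIndex_map_map_dvd {H' : Type*} [Group H'] (f : G →* H') (hf : Function.Surjective f)
    {A B : Subgroup G} (hA : A.Normal) :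
    (A.map f).relIndex (B.map f) ∣ A.relIndex B := by
  have h1 := Subgroup.relIndex_comap (A.map f) f B
  rw [← h1]
  exact Subgroup.relIndex_dvd_of_le_left _ (Subgroup.le_comap_map f A)

/-- transport of a series along a surjective homomorphism -/
theorem IsSeries.map {H' : Type*} [Group H'] {p : ℕ} [Fact p.Prime]
    {H : ℕ → Subgroup G} (h : IsSeries p H) (f : G →* H') (hf : Function.Surjective f) :
    IsSeries p (fun n => (H n).map f) := by
  refine ⟨?_, ?_, ?_, ?_, ?_⟩
  · show (H 0).map f = ⊥
    rw [h.zero, Subgroup.map_bot]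
  · intro a b hab
    exact Subgroup.map_mono (h.mono hab)
  · intro n
    exact Subgroup.Normal.map (h.normal n) f hf
  · intro n hn
    exact Nat.Coprime.coprime_dvd_left (relIndex_map_map_dvd f hf (h.normal n)) (h.even n hn)
  · intro n hn
    obtain ⟨m, hm⟩ := h.odd n hn
    have h1 := relIndex_map_map_dvd f hf (B := H (n + 1)) (h.normal n)
    rw [hm] at h1
    obtain ⟨m', -, hm'⟩ := (Nat.dvd_prime_pow Fact.out).mp h1
    exact ⟨m', hm'⟩

section finite

variable [Finite G] {p : ℕ} [Fact p.Prime]

/-- `p`-length passes to subgroups -/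
theorem pLengthLE_of_injective {H' : Type*} [Group H'] {k : ℕ}
    (f : H' →* G) (hf : Function.Injective f) (h : PLengthLE p k G) : PLengthLE p k H' := by
  have : Finite H' := Finite.of_injective f hf
  obtain ⟨H, hH, ht⟩ := pLengthLE_iff.mp h
  refine pLengthLE_iff.mpr ⟨_, hH.comap f hf, ?_⟩
  show (H (2 * k + 1)).comap f = ⊤
  rw [ht, Subgroup.comap_top]

/-- `p`-length passes to quotients -/
theorem pLengthLE_of_surjective {H' : Type*} [Group H'] {k : ℕ}
    (f : G →* H') (hf : Function.Surjective f) (h : PLengthLE p k G) : PLengthLE p k H' := by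
  have : Finite H' := Finite.of_surjective f hf
  obtain ⟨H, hH, ht⟩ := pLengthLE_iff.mp h
  refine pLengthLE_iff.mpr ⟨_, hH.map f hf, ?_⟩
  show (H (2 * k + 1)).map f = ⊤
  rw [ht, ← MonoidHom.range_eq_map, MonoidHom.range_eq_top.mpr hf]

theorem pLengthLE_subgroup {k : ℕ} (h : PLengthLE p k G) (H : Subgroup G) : PLengthLE p k H :=
  pLengthLE_of_injective H.subtype H.subtype_injective h

theorem pLengthLE_quotient {k : ℕ} (h : PLengthLE p k G) (N : Subgroup G) [N.Normal] :
    PLengthLE p k (G ⧸ N) :=
  pLengthLE_of_surjective (QuotientGroup.mk' N) (QuotientGroup.mk'_surjective N) h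

omit [Finite G] [Fact p.Prime] in
theorem pLengthLE_mono {k l : ℕ} (hkl : k ≤ l) (h : PLengthLE p k G) : PLengthLE p l G := by
  have h1 : (upperPSeries p G (2 * k + 1)).1 ≤ (upperPSeries p G (2 * l + 1)).1 :=
    upperPSeries_mono p (by omega)
  show (upperPSeries p G (2 * l + 1)).1 = ⊤
  rw [eq_top_iff]
  exact le_trans (le_of_eq (Eq.symm h)) h1

theorem pLengthLE_zero_iff : PLengthLE p 0 G ↔ (Nat.card G).Coprime p := by
  have h1 : PLengthLE p 0 G ↔ (upperPSeries p G 1).1 = ⊤ := Iff.rfl
  rw [h1, PLengthOne.upperPSeries_one]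
  constructor
  · intro h
    have h2 := PLengthOne.card_pPrimeCore_coprime (G := G) p
    rw [h, Subgroup.card_top] at h2
    exact h2
  · intro h
    rw [eq_top_iff]
    apply PLengthOne.le_pPrimeCore inferInstance
    rw [Subgroup.card_top]; exact h

theorem pLengthLE_one_of_isPGroup (h : IsPGroup p G) : PLengthLE p 1 G := by
  rw [PLengthSub.pLengthLE_one_iff]
  refine ⟨⊥, ⊤, inferInstance, inferInstance, bot_le, ?_, ?_, ?_⟩
  · rw [Subgroup.card_bot]; exact Nat.coprime_one_left p
  · obtain ⟨n, hn⟩ := IsPGroup.iff_card.mp h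
    refine ⟨n, ?_⟩
    rw [Subgroup.relIndex_bot_left, Subgroup.card_top, hn]
  · rw [Subgroup.index_top]; exact Nat.coprime_one_left p

/-- the terms of the upper `p`-series are characteristic -/
theorem upperPSeries_characteristic (n : ℕ) : (upperPSeries p G n).1.Characteristic := by
  rw [Subgroup.characteristic_iff_map_le]
  intro e
  have h := (isSeries_upperPSeries (G := G) (p := p)).map e.toMonoidHom e.surjective
  exact h.le_upper n

/-- `p`-length is subadditive on extensions -/
theorem pLengthLE_ext (N : Subgroup G) [N.Normal] {a b : ℕ} (hN : PLengthLE p a N)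
    (hQ : PLengthLE p b (G ⧸ N)) : PLengthLE p (a + b) G := by
  -- the series
  let U : ℕ → Subgroup G := fun n => ((upperPSeries p N n).1).map N.subtype
  let W : ℕ → Subgroup G := fun n =>
    ((upperPSeries p (G ⧸ N) n).1).comap (QuotientGroup.mk' N)
  have hUser := isSeries_upperPSeries (G := N) (p := p)
  have hWser := isSeries_upperPSeries (G := G ⧸ N) (p := p)
  have hUn : ∀ n, (U n).Normal := by
    intro n
    have h1 : (upperPSeries p N n).1.Characteristic := upperPSeries_characteristic n
    show (((upperPSeries p N n).1).map N.subtype).Normal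
    infer_instance
  have hUN : ∀ n, U n ≤ N := fun n => Subgroup.map_subtype_le _
  have hNW : ∀ n, N ≤ W n := by
    intro n x hx
    show x ∈ ((upperPSeries p (G ⧸ N) n).1).comap (QuotientGroup.mk' N)
    rw [Subgroup.mem_comap]
    have : QuotientGroup.mk' N x = 1 := (QuotientGroup.eq_one_iff x).2 hx
    rw [this]; exact one_mem _
  have hUm : Monotone U := fun i j hij => Subgroup.map_mono (hUser.mono hij)
  have hWm : Monotone W := fun i j hij => Subgroup.comap_mono (hWser.mono hij)
  have hUrel : ∀ n, (U n).relIndex (U (n + 1)) =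
      ((upperPSeries p N n).1).relIndex (upperPSeries p N (n + 1)).1 := by
    intro n
    exact Subgroup.relIndex_map_map_of_injective _ _ N.subtype_injective
  have hWrel : ∀ n, (W n).relIndex (W (n + 1)) =
      ((upperPSeries p (G ⧸ N) n).1).relIndex (upperPSeries p (G ⧸ N) (n + 1)).1 := by
    intro n
    show (((upperPSeries p (G ⧸ N) n).1).comap (QuotientGroup.mk' N)).relIndex
      (((upperPSeries p (G ⧸ N) (n + 1)).1).comap (QuotientGroup.mk' N)) = _
    rw [Subgroup.relIndex_comap, Subgroup.map_comap_eq_self_of_surjective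
      (QuotientGroup.mk'_surjective N)]
  have hUtop : U (2 * a + 1) = N := by
    have h1 : (upperPSeries p N (2 * a + 1)).1 = ⊤ := hN
    show ((upperPSeries p N (2 * a + 1)).1).map N.subtype = N
    rw [h1, ← MonoidHom.range_eq_map, Subgroup.range_subtype]
  have hW0 : W 0 = N := by
    show ((upperPSeries p (G ⧸ N) 0).1).comap (QuotientGroup.mk' N) = N
    rw [PLengthOne.upperPSeries_zero]
    exact QuotientGroup.ker_mk' N
  let H : ℕ → Subgroup G := fun n => if n ≤ 2 * a then U n else W (n - 2 * a)
  have hH1 : ∀ n, n ≤ 2 * a → H n = U n := fun n hn => if_pos hn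
  have hH2 : ∀ n, ¬ n ≤ 2 * a → H n = W (n - 2 * a) := fun n hn => if_neg hn
  have hsucc : ∀ n, H n ≤ H (n + 1) := by
    intro n
    by_cases h1 : n + 1 ≤ 2 * a
    · rw [hH1 _ h1, hH1 _ (by omega)]
      exact hUm (Nat.le_succ n)
    · rw [hH2 _ h1]
      by_cases h2 : n ≤ 2 * a
      · rw [hH1 _ h2]
        exact (hUN _).trans (hNW _)
      · rw [hH2 _ h2]
        exact hWm (by omega)
  have hmid : (H (2 * a)).relIndex (H (2 * a + 1)) = (U (2 * a)).relIndex (U (2 * a + 1)) *
      (W 0).relIndex (W 1) := by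
    rw [hH1 _ le_rfl, hH2 _ (by omega)]
    have h1 : 2 * a + 1 - 2 * a = 1 := by omega
    rw [h1, hUtop, hW0]
    exact (Subgroup.relIndex_mul_relIndex _ _ _ (hUN _) (hNW _)).symm
  have hser : IsSeries p H := by
    refine ⟨?_, monotone_nat_of_le_succ hsucc, ?_, ?_, ?_⟩
    · rw [hH1 _ (Nat.zero_le _)]
      show ((upperPSeries p N 0).1).map N.subtype = ⊥
      rw [PLengthOne.upperPSeries_zero, Subgroup.map_bot]
    · intro n
      by_cases h1 : n ≤ 2 * a
      · rw [hH1 _ h1]; exact hUn n
      · rw [hH2 _ h1]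
        have := (upperPSeries p (G ⧸ N) (n - 2 * a)).2
        show (((upperPSeries p (G ⧸ N) (n - 2 * a)).1).comap (QuotientGroup.mk' N)).Normal
        infer_instance
    · intro n hn
      rcases lt_trichotomy n (2 * a) with h1 | h1 | h1
      · rw [hH1 _ h1.le, hH1 _ (by omega), hUrel]
        exact hUser.even n hn
      · subst h1
        rw [hmid, hUrel, hWrel]
        exact Nat.Coprime.mul_left (hUser.even _ hn) (hWser.even 0 (by decide))
      · rw [hH2 _ (by omega), hH2 _ (by omega)]
        have h2 : n + 1 - 2 * a = (n - 2 * a) + 1 := by omega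
        rw [h2, hWrel]
        refine hWser.even _ ?_
        obtain ⟨m, hm⟩ := hn
        exact ⟨m - a, by omega⟩
    · intro n hn
      rcases lt_trichotomy n (2 * a) with h1 | h1 | h1
      · rw [hH1 _ h1.le, hH1 _ (by omega), hUrel]
        exact hUser.odd n hn
      · exfalso
        apply hn
        rw [h1]
        exact even_two_mul a
      · rw [hH2 _ (by omega), hH2 _ (by omega)]
        have h2 : n + 1 - 2 * a = (n - 2 * a) + 1 := by omega
        rw [h2, hWrel]
        refine hWser.odd _ ?_
        rintro ⟨m, hm⟩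
        exact hn ⟨m + a, by omega⟩
  refine pLengthLE_iff.mpr ⟨H, hser, ?_⟩
  rw [hH2 _ (by omega)]
  have h3 : 2 * (a + b) + 1 - 2 * a = 2 * b + 1 := by omega
  rw [h3]
  show ((upperPSeries p (G ⧸ N) (2 * b + 1)).1).comap (QuotientGroup.mk' N) = ⊤
  have h4 : (upperPSeries p (G ⧸ N) (2 * b + 1)).1 = ⊤ := hQ
  rw [h4, Subgroup.comap_top]

/-- dividing by `O_{p',p}(G)` lowers the `p`-length by one -/
theorem pLengthLE_quotient_two {k : ℕ} (h : PLengthLE p (k + 1) G) :
    PLengthLE p k (G ⧸ (upperPSeries p G 2).1) := by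
  have hser := isSeries_upperPSeries (G := G) (p := p)
  refine pLengthLE_iff.mpr ⟨fun n => ((upperPSeries p G (n + 2)).1).map
    (QuotientGroup.mk' (upperPSeries p G 2).1), ⟨?_, ?_, ?_, ?_, ?_⟩, ?_⟩
  · show ((upperPSeries p G 2).1).map (QuotientGroup.mk' (upperPSeries p G 2).1) = ⊥
    rw [Subgroup.map_eq_bot_iff, QuotientGroup.ker_mk']
  · intro i j hij
    exact Subgroup.map_mono (hser.mono (by omega))
  · intro n
    exact Subgroup.Normal.map (hser.normal (n + 2)) _ (QuotientGroup.mk'_surjective _)
  · intro n hn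
    have h1 := relIndex_map_map_dvd (QuotientGroup.mk' (upperPSeries p G 2).1)
      (QuotientGroup.mk'_surjective _) (B := (upperPSeries p G (n + 2 + 1)).1)
      (hser.normal (n + 2))
    exact Nat.Coprime.coprime_dvd_left h1 (hser.even (n + 2) (by
      obtain ⟨m, hm⟩ := hn; exact ⟨m + 1, by omega⟩))
  · intro n hn
    have h1 := relIndex_map_map_dvd (QuotientGroup.mk' (upperPSeries p G 2).1)
      (QuotientGroup.mk'_surjective _) (B := (upperPSeries p G (n + 2 + 1)).1)
      (hser.normal (n + 2))
    obtain ⟨m, hm⟩ := hser.odd (n + 2) (by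
      rintro ⟨m, hm⟩; exact hn ⟨m - 1, by omega⟩)
    have h2 : (upperPSeries p G (n + 2)).1.relIndex (upperPSeries p G (n + 2 + 1)).1 = p ^ m := hm
    rw [h2] at h1
    obtain ⟨m', -, hm'⟩ := (Nat.dvd_prime_pow Fact.out).mp h1
    exact ⟨m', hm'⟩
  · have h1 : (upperPSeries p G (2 * (k + 1) + 1)).1 = ⊤ := h
    have h2 : 2 * k + 1 + 2 = 2 * (k + 1) + 1 := by ring
    show ((upperPSeries p G (2 * k + 1 + 2)).1).map (QuotientGroup.mk' (upperPSeries p G 2).1) = ⊤
    rw [h2, h1, ← MonoidHom.range_eq_map, QuotientGroup.range_mk']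

/-- if `O_{p'}(G) = 1` then `O_{p',p}(G)`, the second term of the upper `p`-series, is `O_p(G)`; in
particular a `p`-group -/
theorem isPGroup_upperPSeries_two (h : pPrimeCore p G = ⊥) : IsPGroup p (upperPSeries p G 2).1 := by
  obtain ⟨m, hm⟩ := (isSeries_upperPSeries (G := G) (p := p)).odd 1 (by decide)
  have h1 : (upperPSeries p G 1).1.relIndex (upperPSeries p G 2).1 = p ^ m := hm
  rw [PLengthOne.upperPSeries_one, h, Subgroup.relIndex_bot_left] at h1
  exact IsPGroup.iff_card.mpr ⟨m, h1⟩

end finite

end Cfsg.Agent.H451.PLength
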